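import Cfsg.Agent.G2Two.Unique
import Cfsg.Agent.G2Two.NotSimple
import Cfsg.Agent.S0815
import Cfsg.Agent.S0976
import Cfsg.Agent.S1017
import Cfsg.Agent.RecogA.ThreeSpectrum
import Cfsg.Agent.Classical.USimple

/-!
# Groups of order 12096 without elements of order 9, 14, 21
-/

set_option autoImplicit false
set_option linter.style.haveILetI false
set_option linter.unusedSectionVars false

noncomputable section

open Subgroup
open scoped Pointwise

namespace Cfsg.Agent.G2Two

universe u v

/-- The arithmetic hypotheses. -/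
structure OHyp (X : Type u) [Group X] : Prop where
  card : Nat.card X = 12096
  nine : ∀ g : X, orderOf g ≠ 9
  fourteen : ∀ g : X, orderOf g ≠ 14
  twentyOne : ∀ g : X, orderOf g ≠ 21

variable {X : Type u} [Group X] [Finite X] (hX : OHyp X)
include hX

/-- Elements of order seven are self-centralizing. -/
theorem not_commute_seven {x y : X} (hx : orderOf x = 7) {p : ℕ} (hp : p = 2 ∨ p = 3) (hy : orderOf y = p) :
    ¬ Commute x y := by
  intro hc
  have hm := hc.orderOf_mul_eq_mul_orderOf_of_coprime (by rcases hp with rfl | rfl <;> rw [hx, hy] <;> norm_num)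
  rw [hx, hy] at hm
  rcases hp with rfl | rfl
  · exact hX.fourteen _ hm
  · exact hX.twentyOne _ hm

theorem card_centralizer_seven {x : X} (hx : orderOf x = 7) :
    Nat.card ↥(centralizer ({x} : Set X)) ∣ 7 := by
  set C := centralizer ({x} : Set X) with hC
  have key : ∀ p, p = 2 ∨ p = 3 → ¬ p ∣ Nat.card C := by
    intro p hp hd
    haveI : Fact p.Prime := ⟨by rcases hp with rfl | rfl <;> norm_num⟩
    obtain ⟨y, hy⟩ := exists_prime_orderOf_dvd_card' (G := C) p hd
    exact not_commute_seven hX hx hp (by rw [Subgroup.orderOf_coe, hy] : orderOf (y : X) = p)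
      (show Commute x (y : X) from (mem_centralizer_singleton_iff.1 y.2).symm)
  have hd : Nat.card C ∣ 2 ^ 6 * (3 ^ 3 * 7) := by
    have := C.card_subgroup_dvd_card
    rwa [hX.card] at this
  have h2 : Nat.Coprime (Nat.card C) (2 ^ 6) :=
    ((Nat.prime_two.coprime_iff_not_dvd.2 (key 2 (Or.inl rfl))).symm).pow_right 6
  have h3 : Nat.Coprime (Nat.card C) (3 ^ 3) :=
    ((Nat.prime_three.coprime_iff_not_dvd.2 (key 3 (Or.inr rfl))).symm).pow_right 3
  exact h3.dvd_of_dvd_mul_left (h2.dvd_of_dvd_mul_left hd)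

/-- An element of order seven acts freely. -/
theorem card_mod_seven (Q : Subgroup X) (hQ : ¬ 7 ∣ Nat.card Q) {y : X} (hy : orderOf y = 7)
    (hn : y ∈ normalizer (Q : Set X)) : Nat.card Q % 7 = 1 := by
  haveI := Fact.mk (by norm_num : Nat.Prime 7)
  let ψ : ↥(zpowers y) → ↥Q → ↥Q := fun c q => ⟨(c : X) * q * (c : X)⁻¹,
    (mem_normalizer_iff.1 ((zpowers_le.2 hn) c.2) _).1 q.2⟩
  letI : MulAction ↥(zpowers y) ↥Q :=
    { smul := ψ
      one_smul := fun q => Subtype.ext (by show ((1 : ↥(zpowers y)) : X) * q * _⁻¹ = q; simp)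
      mul_smul := fun c c' q => Subtype.ext (by
        show ((c * c' : ↥(zpowers y)) : X) * q * ((c * c' : ↥(zpowers y)) : X)⁻¹ =
          (c : X) * ((c' : X) * q * (c' : X)⁻¹) * (c : X)⁻¹
        simp [mul_assoc]) }
  have h := (IsPGroup.of_card (n := 1) (by rw [Nat.card_zpowers, hy, pow_one]) :
    IsPGroup 7 ↥(zpowers y)).card_modEq_card_fixedPoints ↥Q
  have hfix : MulAction.fixedPoints ↥(zpowers y) ↥Q = {1} := by
    ext q
    simp only [MulAction.mem_fixedPoints, Set.mem_singleton_iff]
    constructor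
    · intro hq
      have e : y * (q : X) * y⁻¹ = q := congrArg Subtype.val (hq ⟨y, mem_zpowers y⟩)
      have hc : (q : X) ∈ centralizer ({y} : Set X) := mem_centralizer_singleton_iff.2 (by
        calc (q : X) * y = y * q * y⁻¹ * y := by rw [e]
          _ = y * q := by group)
      have h7 := (orderOf_dvd_natCard _ hc).trans (card_centralizer_seven hX hy)
      rcases (Nat.dvd_prime (by norm_num : Nat.Prime 7)).1 h7 with h1 | h1
      · exact Subtype.ext (orderOf_eq_one_iff.1 h1)
      · exact absurd (h1 ▸ orderOf_dvd_natCard Q q.2) hQ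
    · rintro rfl c
      exact Subtype.ext (show (c : X) * ((1 : ↥Q) : X) * (c : X)⁻¹ = _ by simp)
  rw [hfix] at h
  simpa [Nat.ModEq] using h

/-- A `7'`-subgroup normalized by an element of order seven is a 2-group. -/
theorem not_three_dvd (R : Subgroup X) (hR : ¬ 7 ∣ Nat.card R) {x : X} (hx : orderOf x = 7)
    (hn : x ∈ normalizer (R : Set X)) : ¬ 3 ∣ Nat.card R := by
  classical
  intro h3
  haveI := Fact.mk Nat.prime_three
  obtain ⟨Q⟩ := (inferInstance : Nonempty (Sylow 3 ↥R))
  set Q' : Subgroup X := (Q : Subgroup ↥R).map R.subtype with hQ'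
  have hQ'R : Q' ≤ R := map_subtype_le _
  let e : ↥R ≃* ↥R :=
    { toFun := fun r => ⟨x * r * x⁻¹, (mem_normalizer_iff.1 hn r).1 r.2⟩
      invFun := fun r => ⟨x⁻¹ * r * x, (mem_normalizer_iff''.1 hn r).1 r.2⟩
      left_inv := fun r => Subtype.ext (by simp [mul_assoc])
      right_inv := fun r => Subtype.ext (by simp [mul_assoc])
      map_mul' := fun a b => Subtype.ext (by simp [mul_assoc]) }
  let Q₂ : Sylow 3 ↥R := Q.mapSurjective (f := e.toMonoidHom) e.surjective
  obtain ⟨r, hr⟩ := MulAction.exists_smul_eq ↥R Q Q₂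
  have hconj : ∀ q : X, q ∈ Q' ↔ ((r : X)⁻¹ * x) * q * ((r : X)⁻¹ * x)⁻¹ ∈ Q' := by
    intro q
    have himg : ∀ s : ↥R, s ∈ (Q₂ : Subgroup ↥R) ↔ r⁻¹ * s * r ∈ (Q : Subgroup ↥R) := by
      intro s
      rw [← hr]
      show s ∈ MulAut.conj r • (Q : Subgroup ↥R) ↔ _
      rw [Subgroup.mem_pointwise_smul_iff_inv_smul_mem]
      simp [MulAut.smul_def]
    constructor
    · rintro ⟨s, hs, rfl⟩
      have hs' : e s ∈ (Q₂ : Subgroup ↥R) := by
        show e s ∈ (Q : Subgroup ↥R).map e.toMonoidHom
        exact ⟨s, hs, rfl⟩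
      refine ⟨r⁻¹ * e s * r, (himg _).1 hs', ?_⟩
      show ((r⁻¹ * e s * r : ↥R) : X) = _
      simp [e, mul_assoc]
    · intro h
      have hq : ((r : X)⁻¹ * x) * q * ((r : X)⁻¹ * x)⁻¹ ∈ R := hQ'R h
      have hxq : x * q * x⁻¹ ∈ R := by
        have := mul_mem (mul_mem r.2 hq) (inv_mem r.2)
        simpa [mul_assoc] using this
      have hqR : q ∈ R := (mem_normalizer_iff.1 hn q).2 hxq
      obtain ⟨s, hs, hse⟩ := h
      have hs' : r * s * r⁻¹ ∈ (Q₂ : Subgroup ↥R) := (himg _).2 (by
        rw [show r⁻¹ * (r * s * r⁻¹) * r = s by group]; exact hs)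
      obtain ⟨q₀, hq₀, he⟩ : r * s * r⁻¹ ∈ (Q : Subgroup ↥R).map e.toMonoidHom := hs'
      refine ⟨q₀, hq₀, ?_⟩
      have he' : x * (q₀ : X) * x⁻¹ = (r : X) * s * (r : X)⁻¹ := congrArg Subtype.val he
      rw [show ((s : X)) = ((r : X)⁻¹ * x) * q * ((r : X)⁻¹ * x)⁻¹ from hse] at he'
      show (q₀ : X) = q
      have : x * (q₀ : X) * x⁻¹ = x * q * x⁻¹ := by rw [he']; group
      simpa using this
  set y₀ := (r : X)⁻¹ * x with hy₀
  have hy₀N : y₀ ∈ normalizer (Q' : Set X) := mem_normalizer_iff.2 hconj
  have h7 : 7 ∣ orderOf y₀ := by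
    have hpw : ∀ n : ℕ, (x ^ n)⁻¹ * y₀ ^ n ∈ R := by
      intro n
      induction n with
      | zero => simp
      | succ n ih =>
        have e1 : (x ^ (n + 1))⁻¹ * y₀ ^ (n + 1) =
            x⁻¹ * ((x ^ n)⁻¹ * y₀ ^ n * (r : X)⁻¹) * x := by
          rw [pow_succ y₀, hy₀, pow_succ]; group
        rw [e1]
        exact (mem_normalizer_iff''.1 hn _).1 (mul_mem ih (inv_mem r.2))
    have h := hpw (orderOf y₀)
    rw [pow_orderOf_eq_one, mul_one, inv_mem_iff] at h
    by_contra h7
    have hcop : Nat.Coprime (orderOf x) (orderOf y₀) := by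
      rw [hx]; exact (Nat.Prime.coprime_iff_not_dvd (by norm_num)).2 h7
    have ho : orderOf (x ^ orderOf y₀) = 7 := by rw [Nat.Coprime.orderOf_pow hcop, hx]
    exact hR (ho ▸ orderOf_dvd_natCard R h)
  obtain ⟨m, hm⟩ := h7
  have hy : orderOf (y₀ ^ m) = 7 := by
    have hm0 : m ≠ 0 := by rintro rfl; rw [mul_zero] at hm; exact (orderOf_pos y₀).ne' hm
    rw [orderOf_pow' _ hm0, hm, Nat.gcd_mul_left_left, Nat.mul_div_cancel _ (Nat.pos_of_ne_zero hm0)]
  have hQ7 : ¬ 7 ∣ Nat.card Q' := fun h => hR (h.trans (card_dvd_of_le hQ'R))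
  have hmod := card_mod_seven hX Q' hQ7 hy (pow_mem hy₀N m)
  obtain ⟨j, hj, hj'⟩ := (Nat.dvd_prime_pow Nat.prime_three).1 (show Nat.card Q' ∣ 3 ^ 3 by
    have hp : IsPGroup 3 ↥Q' := Q.isPGroup'.map _
    obtain ⟨j, hj⟩ := IsPGroup.iff_card.1 hp
    have hd := Q'.card_subgroup_dvd_card
    rw [hX.card, hj, show (12096 : ℕ) = 448 * 3 ^ 3 by norm_num] at hd
    rw [hj]
    exact ((Nat.Coprime.pow_left j (by norm_num : Nat.Coprime 3 448))).dvd_of_dvd_mul_left hd)
  have hj0 : j ≠ 0 := fun e => by
    have h := Q.dvd_card_of_dvd_card h3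
    rw [← Subgroup.card_map_of_injective (f := R.subtype) R.subtype_injective, ← hQ', hj', e] at h
    norm_num at h
  rw [hj'] at hmod
  interval_cases j <;> omega

theorem exists_orderOf_seven : ∃ x : X, orderOf x = 7 := by
  haveI := Fact.mk (by norm_num : Nat.Prime 7)
  exact exists_prime_orderOf_dvd_card' 7 (by rw [hX.card]; norm_num)

/-- Normal `7'`-subgroups are trivial. -/
theorem eq_bot_of_normal (M : Subgroup X) [hM : M.Normal] (h7 : ¬ 7 ∣ Nat.card M) : M = ⊥ := by
  classical
  haveI := Fact.mk (by norm_num : Nat.Prime 7)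
  haveI := Fact.mk Nat.prime_three
  obtain ⟨x, hx⟩ := exists_orderOf_seven hX
  have hxM : x ∈ normalizer (M : Set X) := by rw [Subgroup.normalizer_eq_top]; exact mem_top _
  have h3 := not_three_dvd hX M h7 hx hxM
  have h1 := card_mod_seven hX M h7 hx hxM
  have hd : Nat.card M ∣ 2 ^ 6 := by
    have h := M.card_subgroup_dvd_card
    rw [hX.card, show (12096 : ℕ) = 2 ^ 6 * (3 ^ 3 * 7) by norm_num] at h
    exact (((Nat.prime_three.coprime_iff_not_dvd.2 h3).symm.pow_right 3).mul_right
      (((Nat.Prime.coprime_iff_not_dvd (by norm_num)).2 h7).symm)).dvd_of_dvd_mul_right h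
  obtain ⟨k, hk, hk'⟩ := (Nat.dvd_prime_pow Nat.prime_two).1 hd
  rw [hk'] at h1
  interval_cases k <;> norm_num at h1
  · exact Subgroup.eq_bot_of_card_eq _ (by rw [hk']; norm_num)
  · -- order eight
    exfalso
    set C := centralizer (M : Set X) with hC
    haveI : C.Normal := Subgroup.normal_centralizer
    have hxC : ∀ w ∈ C, orderOf w ≠ 7 := by
      intro w hw ho
      obtain ⟨y, hy⟩ := exists_prime_orderOf_dvd_card' (G := M) 2 (by rw [hk']; norm_num)
      exact not_commute_seven hX ho (Or.inl rfl) (by rw [Subgroup.orderOf_coe, hy] : orderOf (y : X) = 2)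
        (hw y y.2).symm
    have hC7 : ¬ 7 ∣ Nat.card C := fun h => by
      obtain ⟨w, hw⟩ := exists_prime_orderOf_dvd_card' (G := C) 7 h
      exact hxC w w.2 (by rw [Subgroup.orderOf_coe, hw])
    have hC3 : ¬ 3 ∣ Nat.card C := not_three_dvd hX C hC7 hx (by rw [Subgroup.normalizer_eq_top]; exact mem_top _)
    have hdvd : C.index ∣ Nat.card (Equiv.Perm {m : ↥M // m ≠ 1}) := by
      let f : X →* MulAut ↥M := MulAut.conjNormal
      have hker : f.ker = C := by
        ext g
        rw [MonoidHom.mem_ker, hC, Subgroup.mem_centralizer_iff]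
        constructor
        · intro h m hm
          have := congrArg (fun φ : MulAut ↥M => ((φ ⟨m, hm⟩ : ↥M) : X)) h
          simp only [f, MulAut.conjNormal_apply, MulAut.one_apply] at this
          calc m * g = g * m * g⁻¹ * g := by rw [this]
            _ = g * m := by group
        · intro h
          refine MulEquiv.ext fun m => Subtype.ext ?_
          simp only [f, MulAut.conjNormal_apply, MulAut.one_apply]
          rw [← h m m.2, mul_inv_cancel_right]
      let P : MulAut ↥M →* Equiv.Perm {m : ↥M // m ≠ 1} :=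
        { toFun := fun φ => φ.toEquiv.subtypeEquiv fun m => not_congr φ.map_eq_one_iff.symm
          map_one' := Equiv.ext fun m => rfl
          map_mul' := fun a b => Equiv.ext fun m => rfl }
      have hP : Function.Injective P := fun a b h => MulEquiv.ext fun m => by
        by_cases hm : m = 1
        · rw [hm, map_one, map_one]
        · exact congrArg Subtype.val (Equiv.congr_fun h ⟨m, hm⟩)
      have hk2 : (P.comp f).ker = C := by rw [MonoidHom.ker_comp_of_injective _ _ hP, hker]
      have := Subgroup.card_subgroup_dvd_card (P.comp f).range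
      rwa [← Subgroup.index_ker, hk2] at this
    have h7' : Nat.card {m : ↥M // m ≠ 1} = 7 := by
      have h := Nat.card_congr (Equiv.sumCompl fun m : ↥M => m = 1)
      rw [Nat.card_sum, hk', show Nat.card {a : ↥M // a = 1} = 1 from Nat.card_eq_one_iff_unique.2
        ⟨⟨fun a b => Subtype.ext (a.2.trans b.2.symm)⟩, ⟨⟨1, rfl⟩⟩⟩] at h
      simp only [ne_eq] at h ⊢
      omega
    rw [Nat.card_perm, h7'] at hdvd
    have h27 : 27 ∣ C.index := by
      have h := C.index_mul_card
      rw [hX.card] at h
      refine ((Nat.prime_three.coprime_iff_not_dvd.2 hC3).pow_left 3).dvd_of_dvd_mul_right ?_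
      rw [h]; norm_num
    have := h27.trans hdvd
    norm_num [Nat.factorial] at this
  · -- order sixty-four
    exfalso
    let π := QuotientGroup.mk' M
    have hπc : Nat.card (X ⧸ M) = 189 := by
      have := Subgroup.card_eq_card_quotient_mul_card_subgroup M
      rw [hX.card, hk'] at this
      omega
    obtain ⟨P⟩ := (inferInstance : Nonempty (Sylow 7 X))
    have hP7 : Nat.card ↥(P : Subgroup X) = 7 := by
      have := SmallGroups.card_sylow_subgroup (p := 7) (a := 1) (m := 1728) (by rw [hX.card]; norm_num)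
        (by norm_num) P
      simpa using this
    let P' : Sylow 7 (X ⧸ M) := P.mapSurjective (QuotientGroup.mk'_surjective M)
    have hn1 : Nat.card (Sylow 7 (X ⧸ M)) = 1 := by
      have h1 := card_sylow_modEq_one 7 (X ⧸ M)
      have h2 := SmallGroups.card_sylow_dvd (p := 7) (a := 1) (m := 27) (G := X ⧸ M) (by rw [hπc]; norm_num)
      obtain ⟨i, hi, hi'⟩ := (Nat.dvd_prime_pow Nat.prime_three).1 (show _ ∣ 3 ^ 3 from h2)
      rw [hi'] at h1 ⊢
      interval_cases i <;> first | rfl | (norm_num [Nat.ModEq] at h1)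
    haveI : ((P : Subgroup X).map π).Normal := by
      haveI := (Nat.card_eq_one_iff_unique.1 hn1).1
      exact P'.normal_of_subsingleton
    set H : Subgroup X := ((P : Subgroup X).map π).comap π with hH
    have hPH : (P : Subgroup X) ≤ H := le_comap_map _ _
    let PH : Sylow 7 ↥H := P.subtype hPH
    have hfr := Sylow.normalizer_sup_eq_top (N := H) PH
    have hPHe : (PH : Subgroup ↥H).map H.subtype = (P : Subgroup X) := by
      show ((P : Subgroup X).subgroupOf H).map H.subtype = _
      rw [subgroupOf_map_subtype, inf_eq_left.2 hPH]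
    rw [hPHe] at hfr
    set N := normalizer ((P : Subgroup X) : Set X) with hN
    have hsur : N.map π = ⊤ := by
      have h := congrArg (Subgroup.map π) hfr
      rw [Subgroup.map_sup, Subgroup.map_top_of_surjective π (QuotientGroup.mk'_surjective M), hH,
        Subgroup.map_comap_eq_self_of_surjective (QuotientGroup.mk'_surjective M)] at h
      rwa [sup_eq_left.2 (Subgroup.map_mono le_normalizer)] at h
    have h189 : 189 ∣ Nat.card N := by
      have h := Subgroup.card_dvd_of_surjective (π.subgroupMap N) (π.subgroupMap_surjective N)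
      rwa [hsur, Subgroup.card_top, hπc] at h
    have hNdvd : Nat.card N ∣ 7 * 6 := by
      have hC : Nat.card ↥(centralizer ((P : Subgroup X) : Set X)) ∣ 7 := by
        obtain ⟨y, hy⟩ := exists_prime_orderOf_dvd_card' (G := ↥(P : Subgroup X)) 7 (by rw [hP7])
        refine (Subgroup.card_dvd_of_le (centralizer_le (s := ({(y : X)} : Set X)) ?_)).trans
          (card_centralizer_seven hX (by rw [Subgroup.orderOf_coe, hy]))
        exact Set.singleton_subset_iff.2 y.2
      have h2 : Nat.card (MulAut ↥(P : Subgroup X)) = 6 := by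
        haveI : IsCyclic ↥(P : Subgroup X) := isCyclic_of_prime_card hP7
        rw [Nat.card_congr (IsCyclic.mulAutMulEquiv ↥(P : Subgroup X)).toEquiv, hP7, Nat.card_eq_fintype_card]
        decide +kernel
      have h3 := SmallGroups.relIndex_centralizer_dvd (P : Subgroup X)
      rw [h2] at h3
      have h4 := Subgroup.relIndex_mul_relIndex ⊥ (centralizer ((P : Subgroup X) : Set X)) N bot_le
        (centralizer_le_normalizer _)
      rw [Subgroup.relIndex_bot_left, Subgroup.relIndex_bot_left] at h4
      rw [← h4]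
      exact Nat.mul_dvd_mul hC h3
    have := h189.trans hNdvd
    norm_num at this

/-- The structure of the group. -/
theorem exists_simple_index_two (hns : ¬ IsSimpleGroup X) :
    ∃ S : Subgroup X, S.Normal ∧ IsSimpleGroup ↥S ∧ Hyp ↥S ∧ centralizer (S : Set X) = ⊥ := by
  classical
  haveI := Fact.mk (by norm_num : Nat.Prime 7)
  letI := Fintype.ofFinite X
  haveI : Nontrivial X := Finite.one_lt_card_iff_nontrivial.1 (by rw [hX.card]; norm_num)
  have hex : ∃ n, ∃ N : Subgroup X, N.Normal ∧ N ≠ ⊥ ∧ Nat.card N = n :=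
    ⟨_, ⊤, inferInstance, top_ne_bot, rfl⟩
  obtain ⟨N, hNn, hN0, hNc⟩ := Nat.find_spec hex
  have hmin : ∀ M : Subgroup X, M.Normal → M ≠ ⊥ → Nat.card N ≤ Nat.card M := fun M h1 h2 => by
    rw [hNc]; exact Nat.find_min' hex ⟨M, h1, h2, rfl⟩
  haveI := hNn
  have h7N : 7 ∣ Nat.card N := by_contra fun h => hN0 (eq_bot_of_normal hX N h)
  obtain ⟨x, hx⟩ := exists_prime_orderOf_dvd_card' (G := N) 7 h7N
  have hxo : orderOf (x : X) = 7 := by rw [Subgroup.orderOf_coe, hx]
  have hN1 : Nontrivial ↥N := (Subgroup.nontrivial_iff_ne_bot N).2 hN0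
  have hsimple : IsSimpleGroup ↥N := by
    refine ⟨fun R hR => ?_⟩
    set R' := R.map N.subtype with hR'
    have hR'N : R' ≤ N := map_subtype_le R
    have hR'n : N ≤ normalizer (R' : Set X) := by
      intro g hg
      rw [mem_normalizer_iff]
      intro m
      constructor
      · rintro ⟨r, hr, rfl⟩
        exact ⟨⟨g, hg⟩ * r * ⟨g, hg⟩⁻¹, hR.conj_mem r hr _, rfl⟩
      · intro h
        obtain ⟨r, hr, hre⟩ := h
        refine ⟨⟨g, hg⟩⁻¹ * r * ⟨g, hg⟩⁻¹⁻¹, hR.conj_mem r hr _, ?_⟩
        show g⁻¹ * (r : X) * g⁻¹⁻¹ = m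
        rw [show (r : X) = g * m * g⁻¹ from hre]
        group
    by_cases h7R : 7 ∣ Nat.card R'
    · right
      obtain ⟨y, hy⟩ := exists_prime_orderOf_dvd_card' (G := R') 7 h7R
      have hyo : orderOf (y : X) = 7 := by rw [Subgroup.orderOf_coe, hy]
      let T : Subgroup X := Subgroup.closure {g | orderOf g = 7}
      have hTR : T ≤ R' := by
        refine (Subgroup.closure_le _).2 fun g hg => ?_
        have hgN : g ∈ N := by
          by_contra hgN
          have hgn : orderOf (QuotientGroup.mk' N g) ∣ 7 := hg ▸ orderOf_map_dvd _ g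
          have hdi : orderOf (QuotientGroup.mk' N g) ∣ N.index := orderOf_dvd_natCard _
          rcases (Nat.dvd_prime (by norm_num : Nat.Prime 7)).1 hgn with h1 | h1
          · exact hgN ((QuotientGroup.eq_one_iff g).1 (orderOf_eq_one_iff.1 h1))
          · rw [h1] at hdi
            have := Nat.mul_dvd_mul hdi h7N
            rw [N.index_mul_card, hX.card] at this
            norm_num at this
        have hpg : ∀ {w : X}, orderOf w = 7 → IsPGroup 7 ↥(zpowers w) := fun {w} hw =>
          IsPGroup.of_card (n := 1) (by rw [Nat.card_zpowers, hw, pow_one])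
        have hsyl : ∀ {w : ↥N}, orderOf (w : X) = 7 → ∃ S : Sylow 7 ↥N, (S : Subgroup ↥N) = zpowers w := by
          intro w hw
          have hwo : orderOf w = 7 := by rwa [← Subgroup.orderOf_coe]
          obtain ⟨S, hS⟩ := (IsPGroup.of_card (n := 1) (by rw [Nat.card_zpowers, hwo, pow_one]) :
            IsPGroup 7 ↥(zpowers w)).exists_le_sylow
          refine ⟨S, (Subgroup.eq_of_le_of_card_ge hS ?_).symm⟩
          obtain ⟨j, hj⟩ := IsPGroup.iff_card.1 S.isPGroup'
          rw [Nat.card_zpowers, hwo, hj]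
          have hd : 7 ^ j ∣ 12096 := hj ▸ hX.card ▸ ((S : Subgroup ↥N).card_subgroup_dvd_card.trans
            N.card_subgroup_dvd_card)
          rcases j with _ | _ | j
          · norm_num
          · norm_num
          · exfalso
            have : 7 ^ 2 ∣ 12096 := (pow_dvd_pow 7 (by omega : 2 ≤ j + 1 + 1)).trans hd
            norm_num at this
        obtain ⟨S₁, hS₁⟩ := hsyl (w := ⟨g, hgN⟩) hg
        obtain ⟨S₂, hS₂⟩ := hsyl (w := ⟨y, hR'N y.2⟩) hyo
        obtain ⟨a, ha⟩ := MulAction.exists_smul_eq ↥N S₂ S₁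
        have hmem : (⟨g, hgN⟩ : ↥N) ∈ (S₁ : Subgroup ↥N) := hS₁ ▸ mem_zpowers _
        rw [← ha] at hmem
        have hsmul : ((a • S₂ : Sylow 7 ↥N) : Subgroup ↥N) ≤ R := by
          show MulAut.conj a • (S₂ : Subgroup ↥N) ≤ R
          rw [hS₂]
          rintro w ⟨v, hv, rfl⟩
          refine hR.conj_mem v (zpowers_le.2 ?_ hv) a
          obtain ⟨r, hr, hre⟩ := y.2
          have : r = (⟨y, hR'N y.2⟩ : ↥N) := Subtype.ext hre
          exact this ▸ hr
        exact ⟨⟨g, hgN⟩, hsmul hmem, rfl⟩
      haveI hTn : T.Normal := ⟨fun m hm g => by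
        have h : T.map (MulAut.conj g).toMonoidHom ≤ T := by
          rw [MonoidHom.map_closure]
          refine Subgroup.closure_mono ?_
          rintro _ ⟨w, hw, rfl⟩
          show orderOf (MulAut.conj g w) = 7
          rw [(MulAut.conj g).orderOf_eq]; exact hw
        exact h ⟨m, hm, rfl⟩⟩
      have hT0 : T ≠ ⊥ := fun h => by
        have : (y : X) ∈ T := Subgroup.subset_closure hyo
        rw [h, mem_bot] at this
        rw [this, orderOf_one] at hyo
        norm_num at hyo
      have he : T = N := Subgroup.eq_of_le_of_card_ge (hTR.trans hR'N) (hmin T hTn hT0)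
      rw [eq_top_iff]
      intro n _
      have hn : (n : X) ∈ T := by rw [he]; exact n.2
      obtain ⟨r, hr, hre⟩ := hTR hn
      exact (Subtype.ext hre : r = n) ▸ hr
    · left
      have h2R : IsPGroup 2 ↥R' := by
        have hd : Nat.card R' ∣ 2 ^ 6 := by
          have h := R'.card_subgroup_dvd_card
          rw [hX.card, show (12096 : ℕ) = 2 ^ 6 * (3 ^ 3 * 7) by norm_num] at h
          refine (((Nat.prime_three.coprime_iff_not_dvd.2 ?_).symm.pow_right 3).mul_right
            (((Nat.Prime.coprime_iff_not_dvd (by norm_num)).2 h7R).symm)).dvd_of_dvd_mul_right h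
          exact not_three_dvd hX R' h7R hxo (hR'n x.2)
        obtain ⟨j, -, hj⟩ := (Nat.dvd_prime_pow Nat.prime_two).1 hd
        exact IsPGroup.of_card hj
      let P : Subgroup X → Prop := fun W => IsPGroup 2 ↥W ∧ N ≤ normalizer (W : Set X) ∧ W ≤ N
      have hmap : ∀ (C : Subgroup X) (n : X), n ∈ normalizer (C : Set X) →
          C.map (MulAut.conj n).toMonoidHom = C := by
        intro C n hn
        ext m
        constructor
        · rintro ⟨v, hv, rfl⟩
          exact (mem_normalizer_iff.1 hn v).1 hv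
        · intro hm
          exact ⟨n⁻¹ * m * n, (mem_normalizer_iff''.1 hn m).1 hm, by simp [mul_assoc]⟩
      let W : Subgroup X := Finset.univ.sup fun g : X => R'.map (MulAut.conj g).toMonoidHom
      have hW : P W := by
        refine Finset.sup_induction (p := P) ⟨IsPGroup.of_card (n := 0) (by simp), ?_, bot_le⟩ ?_ fun g _ => ?_
        · rw [Subgroup.normalizer_eq_top]; exact le_top
        · rintro A ⟨hA, hA', hAN⟩ B ⟨hB, hB', hBN⟩
          refine ⟨?_, fun n hn => ?_, sup_le hAN hBN⟩
          · exact hA.to_sup_of_normal_right' hB (hAN.trans hB')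
          · rw [mem_normalizer_iff]
            intro m
            have hcA : (A ⊔ B).map (MulAut.conj n).toMonoidHom = A ⊔ B := by
              rw [Subgroup.map_sup, hmap A n (hA' hn), hmap B n (hB' hn)]
            constructor
            · intro hm
              have : MulAut.conj n m ∈ (A ⊔ B).map (MulAut.conj n).toMonoidHom := ⟨m, hm, rfl⟩
              rwa [hcA] at this
            · intro hm
              rw [← hcA] at hm
              obtain ⟨m', hm', e⟩ := hm
              have : m' = m := (MulAut.conj n).injective e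
              exact this ▸ hm'
        · refine ⟨h2R.map _, fun n hn => ?_, ?_⟩
          swap
          · rintro _ ⟨v, hv, rfl⟩
            exact hNn.conj_mem v (hR'N hv) g
          rw [mem_normalizer_iff]
          intro m
          have hconjN : g⁻¹ * n * g ∈ N := by
            have := hNn.conj_mem n hn g⁻¹
            rwa [inv_inv] at this
          have key := mem_normalizer_iff.1 (hR'n hconjN) (g⁻¹ * m * g)
          rw [show g⁻¹ * n * g * (g⁻¹ * m * g) * (g⁻¹ * n * g)⁻¹ = g⁻¹ * (n * m * n⁻¹) * g by group] at key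
          have hmem : ∀ w : X, w ∈ R'.map (MulAut.conj g).toMonoidHom ↔ g⁻¹ * w * g ∈ R' := fun w => by
            constructor
            · rintro ⟨v, hv, rfl⟩
              simpa [mul_assoc] using hv
            · intro hw
              exact ⟨_, hw, by simp [mul_assoc]⟩
          rw [hmem, hmem]
          exact key
      haveI hWn : W.Normal := ⟨fun m hm g => by
        have h : W.map (MulAut.conj g).toMonoidHom ≤ W := by
          show (Finset.univ.sup fun h : X => R'.map (MulAut.conj h).toMonoidHom).map _ ≤ _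
          rw [Finset.sup_eq_iSup, Subgroup.map_iSup, iSup_le_iff]
          intro a
          rw [Subgroup.map_iSup, iSup_le_iff]
          intro _
          rw [Subgroup.map_map, show (MulAut.conj g).toMonoidHom.comp (MulAut.conj a).toMonoidHom =
            (MulAut.conj (g * a)).toMonoidHom from MonoidHom.ext fun w => by simp [mul_assoc]]
          exact Finset.le_sup (f := fun h : X => R'.map (MulAut.conj h).toMonoidHom) (Finset.mem_univ (g * a))
        exact h ⟨m, hm, rfl⟩⟩
      have hW0 : W = ⊥ := eq_bot_of_normal hX W fun h => by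
        obtain ⟨j, hj⟩ := IsPGroup.iff_card.1 hW.1
        rw [hj] at h
        have := (by norm_num : Nat.Prime 7).dvd_of_dvd_pow h
        norm_num at this
      have hle : R' ≤ W := by
        refine le_trans ?_ (Finset.le_sup (f := fun h : X => R'.map (MulAut.conj h).toMonoidHom) (Finset.mem_univ 1))
        intro w hw
        exact ⟨w, hw, by simp⟩
      rw [hW0, le_bot_iff, hR', Subgroup.map_eq_bot_iff_of_injective _ N.subtype_injective] at hle
      exact hle
  -- the order
  have hidx : N.index ∣ 6 := by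
    obtain ⟨P⟩ := (inferInstance : Nonempty (Sylow 7 ↥N))
    have hfr := Sylow.normalizer_sup_eq_top P
    set P' := (P : Subgroup ↥N).map N.subtype with hP'
    have hP7 : Nat.card P' = 7 := by
      rw [hP', Subgroup.card_map_of_injective N.subtype_injective]
      obtain ⟨j, hj⟩ := IsPGroup.iff_card.1 P.isPGroup'
      have h1 := P.dvd_card_of_dvd_card h7N
      rw [hj] at h1 ⊢
      have hd : 7 ^ j ∣ 12096 := hj ▸ hX.card ▸ ((P : Subgroup ↥N).card_subgroup_dvd_card.trans
        N.card_subgroup_dvd_card)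
      rcases j with _ | _ | j
      · norm_num at h1
      · norm_num
      · exfalso
        have : 7 ^ 2 ∣ 12096 := (pow_dvd_pow 7 (by omega : 2 ≤ j + 1 + 1)).trans hd
        norm_num at this
    set NP := normalizer (P' : Set X) with hNP
    let π := QuotientGroup.mk' N
    have hsur : NP.map π = ⊤ := by
      have h := congrArg (Subgroup.map π) hfr
      rw [Subgroup.map_sup, Subgroup.map_top_of_surjective π (QuotientGroup.mk'_surjective N),
        show N.map π = ⊥ by rw [Subgroup.map_eq_bot_iff, QuotientGroup.ker_mk'], sup_bot_eq] at h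
      exact h
    have h1 : N.index ∣ Nat.card NP := by
      have h := Subgroup.card_dvd_of_surjective (π.subgroupMap NP) (π.subgroupMap_surjective NP)
      rwa [hsur, Subgroup.card_top] at h
    have hcop : Nat.Coprime N.index 7 := ((Nat.Prime.coprime_iff_not_dvd (by norm_num)).2 fun h => by
      have := Nat.mul_dvd_mul h h7N
      rw [N.index_mul_card, hX.card] at this
      norm_num at this).symm
    refine hcop.dvd_of_dvd_mul_left (h1.trans ?_)
    haveI : IsCyclic ↥P' := isCyclic_of_prime_card hP7
    have h2 : Nat.card (MulAut ↥P') = 6 := by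
      rw [Nat.card_congr (IsCyclic.mulAutMulEquiv ↥P').toEquiv, hP7, Nat.card_eq_fintype_card]
      decide +kernel
    have h3 := SmallGroups.relIndex_centralizer_dvd P'
    rw [h2] at h3
    have h4 := Subgroup.relIndex_mul_relIndex ⊥ (centralizer (P' : Set X)) NP bot_le (centralizer_le_normalizer _)
    rw [Subgroup.relIndex_bot_left, Subgroup.relIndex_bot_left] at h4
    rw [← h4]
    refine Nat.mul_dvd_mul ?_ h3
    obtain ⟨y, hy⟩ := exists_prime_orderOf_dvd_card' (G := ↥P') 7 (by rw [hP7])
    exact (Subgroup.card_dvd_of_le (centralizer_le (s := ({(y : X)} : Set X)) (Set.singleton_subset_iff.2 y.2))).trans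
      (card_centralizer_seven hX (by rw [Subgroup.orderOf_coe, hy]))
  have hcardN : Nat.card N = 6048 := by
    have h := N.index_mul_card
    rw [hX.card] at h
    have hi : N.index ≤ 6 := Nat.le_of_dvd (by norm_num) hidx
    interval_cases hn : N.index
    · omega
    · exfalso
      have : N = ⊤ := Subgroup.index_eq_one.1 hn
      subst this
      exact hns (Subgroup.topEquiv.isSimpleGroup_congr.1 hsimple)
    · omega
    · exact absurd (show Nat.card N = 4032 by omega) Cfsg.Agent.S0976.result
    · norm_num at hidx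
    · norm_num at hidx
    · exact absurd (show Nat.card N = 2016 by omega) Cfsg.Agent.S1017.result
  refine ⟨N, hNn, hsimple, ⟨hcardN, fun g => by rw [← Subgroup.orderOf_coe]; exact hX.nine _⟩, ?_⟩
  haveI : (centralizer (N : Set X)).Normal := Subgroup.normal_centralizer
  refine eq_bot_of_normal hX _ fun h => ?_
  obtain ⟨w, hw⟩ := exists_prime_orderOf_dvd_card' (G := centralizer (N : Set X)) 7 h
  obtain ⟨y, hy⟩ := exists_prime_orderOf_dvd_card' (G := N) 2 (by rw [hcardN]; norm_num)
  exact not_commute_seven hX (by rw [Subgroup.orderOf_coe, hw] : orderOf (w : X) = 7) (Or.inl rfl)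
    (by rw [Subgroup.orderOf_coe, hy] : orderOf (y : X) = 2) (w.2 y y.2).symm

omit hX

/-- The projective special unitary group of dimension three over nine elements. -/
theorem psu_facts {K : Type v} [Field K] [Fintype K] (hK : Fintype.card K = 9) :
    IsSimpleGroup (Cfsg.PSU 3 K 3) ∧ Hyp (Cfsg.PSU 3 K 3) := by
  have hsq := Classical.U.sqField_of_fintype (F := K) (q := 3) (by rw [hK]; norm_num)
  refine ⟨Classical.U.isSimpleGroup_PSU hsq (by norm_num) (by omega), ?_, fun g hg => ?_⟩
  · have h := Classical.U.card_PSU hsq (n := 3) (by norm_num)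
    rw [Classical.U.card_UG hsq] at h
    simp only [Finset.prod_range_succ, Finset.prod_range_zero] at h
    norm_num [Nat.even_iff] at h ⊢
    omega
  · have h : (9 : ℕ) ∈ Set.range (orderOf : Cfsg.PSU 3 K 3 → ℕ) := ⟨g, hg⟩
    rw [RecogA.range_orderOf_psu_three_three hK] at h
    obtain ⟨e, he, hd⟩ := h
    simp only [Finset.mem_insert, Finset.mem_singleton] at he
    rcases he with rfl | rfl | rfl <;> norm_num at hd

/-- Such a group is the automorphism group of the unitary group. -/
theorem nonempty_mulEquiv_mulAut (hX' : OHyp X) {K : Type v} [Field K] [Fintype K] (hK : Fintype.card K = 9) :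
    Nonempty (X ≃* MulAut (Cfsg.PSU 3 K 3)) := by
  classical
  have hns : ¬ IsSimpleGroup X := fun h => not_simple hX'.card
  obtain ⟨S, hSn, hSs, hS, hC⟩ := exists_simple_index_two hX' hns
  obtain ⟨hPs, hP⟩ := psu_facts hK
  obtain ⟨e⟩ := nonempty_mulEquiv_of_hyp hS hP
  let f : X →* MulAut (Cfsg.PSU 3 K 3) := (MulAut.congr e).toMonoidHom.comp MulAut.conjNormal
  have hf : Function.Injective f := by
    refine (MulAut.congr e).injective.comp ((injective_iff_map_eq_one _).2 fun g hg => ?_)
    have : g ∈ centralizer (S : Set X) := by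
      intro m hm
      have := congrArg (fun φ : MulAut ↥S => ((φ ⟨m, hm⟩ : ↥S) : X)) hg
      simp only [MulAut.conjNormal_apply, MulAut.one_apply] at this
      calc m * g = g * m * g⁻¹ * g := by rw [this]
        _ = g * m := by group
    rwa [hC, mem_bot] at this
  haveI := Fact.mk Nat.prime_three
  have hcard := Cfsg.Agent.S0815.result (F := K) 3 1 le_rfl (q := 3) (by norm_num) (by rw [hK]; norm_num) 3
    le_rfl (by omega)
  rw [hP.card] at hcard
  haveI : Finite (MulAut (Cfsg.PSU 3 K 3)) := Nat.finite_of_card_ne_zero (by rw [hcard]; norm_num)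
  exact ⟨MulEquiv.ofBijective f ((Nat.bijective_iff_injective_and_card f).2
    ⟨hf, by rw [hX'.card, hcard]; norm_num⟩)⟩

end Cfsg.Agent.G2Two
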